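import Cfsg.Agent.H670.Hg.Cls
import Cfsg.Agent.H361.PSLThree

/-!
# S4933, the positive rows at 3: membership in the principal block (helper300)
-/

set_option autoImplicit false

namespace Cfsg.Agent.H300.HT

open Cfsg Subgroup

universe u

/-- the fact for a group: a character of the principal 3-block, of 3-part 3 -/
def Fact3 (S : Type u) [Group S] : Prop :=
  ∀ M : Ideal AlgInt, IsPModular 3 M → ∃ χ ∈ principalBlock M S, 3 ∣ charDegree (χ : S → ℂ) ∧
    ¬ 3 ^ 2 ∣ charDegree (χ : S → ℂ)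

theorem factorization_eq_one {n : ℕ} (h0 : 0 < n) (h1 : 3 ∣ n) (h2 : ¬ 3 ^ 2 ∣ n) : n.factorization 3 = 1 := by
  have h3 : ¬ 2 ≤ n.factorization 3 := fun h => h2 ((Nat.Prime.pow_dvd_iff_le_factorization Nat.prime_three h0.ne').2 h)
  have h4 : 1 ≤ n.factorization 3 := (Nat.Prime.pow_dvd_iff_le_factorization Nat.prime_three h0.ne').1 (by simpa using h1)
  omega

/-- Sylow 3-subgroups of order 27 -/
theorem mem_of {S : Type u} [Group S] [Finite S] {M : Ideal AlgInt} (hM : IsPModular 3 M) (χ : IrrCharacter S)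
    (h1 : 3 ∣ charDegree (χ : S → ℂ)) (h2 : ¬ 3 ^ 2 ∣ charDegree (χ : S → ℂ)) (hc : (Nat.card S).factorization 3 = 3)
    (hy : ∀ y : S, y ≠ 1 → ¬ 3 ∣ orderOf y → ¬ 9 ∣ Nat.card (centralizer ({y} : Set S))) : χ ∈ principalBlock M S := by
  have : Fact (Nat.Prime 3) := ⟨Nat.prime_three⟩
  have h := factorization_eq_one (Cfsg.Agent.Blocks.Basic.charDegree_pos χ.2) h1 h2
  refine Cfsg.Agent.H670.Hg.mem_principal_of_class hM χ (by rw [h, hc]; norm_num) fun y hy1 hy3 => ?_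
  rw [h, hc]
  exact hy y hy1 hy3

theorem cent_congr {S T : Type*} [Group S] [Group T] (e : S ≃* T) (n : ℕ)
    (h : ∀ y : T, y ≠ 1 → ¬ 3 ∣ orderOf y → ¬ n ∣ Nat.card (centralizer ({y} : Set T))) (y : S) (hy : y ≠ 1)
    (h3 : ¬ 3 ∣ orderOf y) : ¬ n ∣ Nat.card (centralizer ({y} : Set S)) := by
  rw [← Cfsg.Agent.H361.PSLThree.card_centralizer_equiv e y]
  refine h (e y) (fun h1 => hy ?_) ?_
  · rwa [map_eq_one_iff e e.injective] at h1
  · rwa [MulEquiv.orderOf_eq]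

end Cfsg.Agent.H300.HT
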